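import Mathlib
import Cfsg.Prelude.Def_ClassicalGeometry

/-! The symplectic form, transvections, transitivity and generation. -/
set_option autoImplicit false
open scoped Matrix

namespace CfsgLib.Symplectic.Basic

variable {F : Type*} [Field F] {m : ℕ}

/-- vectors of the symplectic space -/
abbrev V (m : ℕ) (F : Type*) := Fin m ⊕ Fin m → F

/-- the symplectic group -/
abbrev Sp (m : ℕ) (F : Type*) [CommRing F] := Matrix.symplecticGroup (Fin m) F

/-- the alternating bilinear form -/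
noncomputable def B : LinearMap.BilinForm F (V m F) := Matrix.toBilin' (Matrix.J (Fin m) F)

theorem B_eq (u v : V m F) : B u v = Cfsg.sympForm m F u v := Matrix.toBilin'_apply' _ _ _

theorem B_expand (u v : V m F) :
    B u v = ∑ i, (u (Sum.inr i) * v (Sum.inl i) - u (Sum.inl i) * v (Sum.inr i)) := by
  rw [B_eq, Cfsg.sympForm, Matrix.J, ← Sum.elim_comp_inl_inr v, Matrix.fromBlocks_mulVec,
    ← Sum.elim_comp_inl_inr u, sumElim_dotProduct_sumElim, Finset.sum_sub_distrib]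
  simp only [Sum.elim_comp_inl, Sum.elim_comp_inr, Matrix.zero_mulVec, zero_add, add_zero,
    Matrix.neg_mulVec, Matrix.one_mulVec, dotProduct, Pi.neg_apply, Function.comp_apply, mul_neg, Finset.sum_neg_distrib,
    Sum.elim_inl, Sum.elim_inr]
  ring

theorem B_self (v : V m F) : B v v = 0 := by
  rw [B_expand]; exact Finset.sum_eq_zero fun i _ => by ring

theorem B_swap (u v : V m F) : B u v = -B v u := by
  rw [B_expand, B_expand, ← Finset.sum_neg_distrib]; exact Finset.sum_congr rfl fun i _ => by ring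

theorem B_single_inl (u : V m F) (i : Fin m) : B u (Pi.single (Sum.inl i) 1) = u (Sum.inr i) := by
  rw [B_expand]; simp [Pi.single_apply]

theorem B_single_inr (u : V m F) (i : Fin m) : B u (Pi.single (Sum.inr i) 1) = -u (Sum.inl i) := by
  rw [B_expand]; simp [Pi.single_apply]

theorem B_single_left_inl (u : V m F) (i : Fin m) : B (Pi.single (Sum.inl i) 1) u = -u (Sum.inr i) := by
  rw [B_swap, B_single_inl]

theorem B_single_left_inr (u : V m F) (i : Fin m) : B (Pi.single (Sum.inr i) 1) u = u (Sum.inl i) := by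
  rw [B_swap, B_single_inr, neg_neg]

theorem eq_zero_of_B_left {u : V m F} (h : ∀ v, B u v = 0) : u = 0 := by
  funext i
  rcases i with i | i
  · simpa [B_single_inr] using h (Pi.single (Sum.inr i) 1)
  · simpa [B_single_inl] using h (Pi.single (Sum.inl i) 1)

theorem exists_B_eq_one {u : V m F} (hu : u ≠ 0) : ∃ v, B u v = 1 := by
  obtain ⟨z, hz⟩ : ∃ z, B u z ≠ 0 := by
    by_contra hc; push Not at hc; exact hu (eq_zero_of_B_left hc)
  exact ⟨(B u z)⁻¹ • z, by rw [map_smul, smul_eq_mul, inv_mul_cancel₀ hz]⟩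

theorem B_mulVec (A : Matrix (Fin m ⊕ Fin m) (Fin m ⊕ Fin m) F) (u v : V m F) :
    B (A *ᵥ u) (A *ᵥ v) = u ⬝ᵥ ((Aᵀ * Matrix.J (Fin m) F * A) *ᵥ v) := by
  rw [B_eq, Cfsg.sympForm, ← Matrix.mulVec_mulVec, ← Matrix.mulVec_mulVec,
    Matrix.dotProduct_mulVec u Aᵀ, Matrix.vecMul_transpose]

theorem mem_iff (A : Matrix (Fin m ⊕ Fin m) (Fin m ⊕ Fin m) F) :
    A ∈ Matrix.symplecticGroup (Fin m) F ↔ ∀ u v : V m F, B (A *ᵥ u) (A *ᵥ v) = B u v := by
  rw [SymplecticGroup.mem_iff']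
  constructor
  · intro h u v
    rw [B_mulVec, h, B_eq, Cfsg.sympForm]
  · intro h
    refine Matrix.toBilin'.injective (LinearMap.ext₂ fun u v => ?_)
    rw [Matrix.toBilin'_apply', Matrix.toBilin'_apply', ← B_mulVec, h, B_eq, Cfsg.sympForm]

theorem B_map (A : Sp m F) (u v : V m F) : B (A.1 *ᵥ u) (A.1 *ᵥ v) = B u v := (mem_iff A.1).1 A.2 u v

theorem mulVec_inv_cancel (A : Sp m F) (v : V m F) : (A⁻¹).1 *ᵥ (A.1 *ᵥ v) = v := by
  rw [Matrix.mulVec_mulVec, ← Submonoid.coe_mul, inv_mul_cancel, Submonoid.coe_one, Matrix.one_mulVec]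

theorem mulVec_cancel_inv (A : Sp m F) (v : V m F) : A.1 *ᵥ ((A⁻¹).1 *ᵥ v) = v := by
  rw [Matrix.mulVec_mulVec, ← Submonoid.coe_mul, mul_inv_cancel, Submonoid.coe_one, Matrix.one_mulVec]

theorem mulVec_mul (A B : Sp m F) (v : V m F) : (A * B).1 *ᵥ v = A.1 *ᵥ (B.1 *ᵥ v) := by
  rw [Submonoid.coe_mul, Matrix.mulVec_mulVec]

theorem mulVec_ne_zero (A : Sp m F) {v : V m F} (hv : v ≠ 0) : A.1 *ᵥ v ≠ 0 := fun h =>
  hv (by rw [← mulVec_inv_cancel A v, h, Matrix.mulVec_zero])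

theorem ext_mulVec {A C : Sp m F} (h : ∀ v, A.1 *ᵥ v = C.1 *ᵥ v) : A = C :=
  Subtype.ext (Matrix.ext_iff_mulVec.2 h)

theorem tmat_mulVec (w : V m F) (c : F) (x : V m F) :
    Cfsg.sympTransvection m w c *ᵥ x = x + (c * B x w) • w := by
  rw [Cfsg.sympTransvection, Matrix.add_mulVec, Matrix.one_mulVec, Matrix.smul_mulVec, Matrix.vecMulVec_mulVec,
    B_eq, Cfsg.sympForm, dotProduct_comm x]
  simp [smul_smul]

theorem tmat_mem (w : V m F) (c : F) : Cfsg.sympTransvection m w c ∈ Matrix.symplecticGroup (Fin m) F := by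
  rw [mem_iff]
  intro u v
  simp only [tmat_mulVec, map_add, map_smul, LinearMap.add_apply, LinearMap.smul_apply, smul_eq_mul, B_self]
  rw [B_swap w v]; ring

/-- symplectic transvection -/
def T (w : V m F) (c : F) : Sp m F := ⟨Cfsg.sympTransvection m w c, tmat_mem w c⟩

theorem T_apply (w : V m F) (c : F) (x : V m F) : (T w c).1 *ᵥ x = x + (c * B x w) • w := tmat_mulVec w c x

theorem T_fix {w : V m F} {c : F} {x : V m F} (h : B x w = 0) : (T w c).1 *ᵥ x = x := by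
  rw [T_apply, h, mul_zero, zero_smul, add_zero]

theorem T_add (w : V m F) (c d : F) : T w (c + d) = T w c * T w d := by
  refine ext_mulVec fun x => ?_
  rw [mulVec_mul, T_apply, T_apply, T_apply, map_add, map_smul, LinearMap.add_apply, LinearMap.smul_apply, B_self,
    smul_zero, add_zero, add_assoc, ← add_smul]
  congr 2; ring

theorem T_zero (w : V m F) : T w (0 : F) = 1 := ext_mulVec fun x => by rw [T_apply]; simp

theorem T_neg (w : V m F) (c : F) : (T w c)⁻¹ = T w (-c) :=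
  inv_eq_of_mul_eq_one_right (by rw [← T_add, add_neg_cancel, T_zero])

theorem T_smul (w : V m F) (a c : F) : T (a • w) c = T w (a ^ 2 * c) := by
  refine ext_mulVec fun x => ?_
  rw [T_apply, T_apply, map_smul, smul_eq_mul, smul_smul]
  congr 2; ring

theorem conj_T (A : Sp m F) (w : V m F) (c : F) : A * T w c * A⁻¹ = T (A.1 *ᵥ w) c := by
  refine ext_mulVec fun x => ?_
  rw [mulVec_mul, mulVec_mul, T_apply, T_apply, Matrix.mulVec_add, mulVec_cancel_inv, Matrix.mulVec_smul]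
  congr 3
  conv_rhs => rw [← mulVec_cancel_inv A x, B_map]

/-- pointwise fixer of a set of vectors -/
def fixer (S : Set (V m F)) : Subgroup (Sp m F) where
  carrier := {A | ∀ s ∈ S, A.1 *ᵥ s = s}
  one_mem' := fun s _ => by simp
  mul_mem' := fun {a b} ha hb s hs => by rw [mulVec_mul, hb s hs, ha s hs]
  inv_mem' := fun {a} ha s hs => by
    conv_lhs => rw [← ha s hs]
    exact mulVec_inv_cancel a s

theorem mem_fixer {S : Set (V m F)} {A : Sp m F} : A ∈ fixer S ↔ ∀ s ∈ S, A.1 *ᵥ s = s := Iff.rfl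

/-- orthogonal complement of a set of vectors -/
def orth (S : Set (V m F)) : Submodule F (V m F) where
  carrier := {x | ∀ s ∈ S, B s x = 0}
  add_mem' := fun {a b} ha hb s hs => by rw [map_add, ha s hs, hb s hs, add_zero]
  zero_mem' := fun s _ => by simp
  smul_mem' := fun c {a} ha s hs => by rw [map_smul, ha s hs, smul_zero]

theorem mem_orth {S : Set (V m F)} {x : V m F} : x ∈ orth S ↔ ∀ s ∈ S, B s x = 0 := Iff.rfl

/-- the form is non-degenerate on the orthogonal complement -/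
def NondegOrth (S : Set (V m F)) : Prop := ∀ x ∈ orth S, x ≠ 0 → ∃ z ∈ orth S, B x z ≠ 0

/-- subgroup generated by the transvections fixing `S` -/
noncomputable def TS (S : Set (V m F)) : Subgroup (Sp m F) :=
  Subgroup.closure {A | ∃ w ∈ orth S, ∃ c, A = T w c}

theorem T_mem_TS {S : Set (V m F)} {w : V m F} (hw : w ∈ orth S) (c : F) : T w c ∈ TS S :=
  Subgroup.subset_closure ⟨w, hw, c, rfl⟩

theorem TS_le_fixer (S : Set (V m F)) : TS S ≤ fixer S := by
  rw [TS, Subgroup.closure_le]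
  rintro _ ⟨w, hw, c, rfl⟩ s hs
  exact T_fix (hw s hs)

theorem TS_mono {S S' : Set (V m F)} (h : S ⊆ S') : TS S' ≤ TS S :=
  Subgroup.closure_mono (by rintro _ ⟨w, hw, c, rfl⟩; exact ⟨w, fun s hs => hw s (h hs), c, rfl⟩)

theorem step_nonperp {S : Set (V m F)} {u v : V m F} (hu : u ∈ orth S) (hv : v ∈ orth S) (h : B u v ≠ 0) :
    ∃ A ∈ TS S, A.1 *ᵥ u = v := by
  refine ⟨T (v - u) (B u v)⁻¹, T_mem_TS ((orth S).sub_mem hv hu) _, ?_⟩
  rw [T_apply, map_sub, B_self, sub_zero, inv_mul_cancel₀ h, one_smul, add_sub_cancel]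

theorem exists_nonperp_two {S : Set (V m F)} (hS : NondegOrth S) {u v : V m F} (hu : u ∈ orth S)
    (hv : v ∈ orth S) (hu0 : u ≠ 0) (hv0 : v ≠ 0) : ∃ z ∈ orth S, B u z ≠ 0 ∧ B z v ≠ 0 := by
  obtain ⟨a, ha, hua⟩ := hS u hu hu0
  obtain ⟨b, hb, hvb⟩ := hS v hv hv0
  by_cases hav : B a v = 0
  · by_cases hub : B u b = 0
    · refine ⟨a + b, (orth S).add_mem ha hb, ?_, ?_⟩
      · rwa [map_add, hub, add_zero]
      · rw [map_add, LinearMap.add_apply, hav, zero_add, B_swap, neg_ne_zero]; exact hvb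
    · exact ⟨b, hb, hub, by rw [B_swap, neg_ne_zero]; exact hvb⟩
  · exact ⟨a, ha, hua, hav⟩

theorem trans_vec {S : Set (V m F)} (hS : NondegOrth S) {u v : V m F} (hu : u ∈ orth S)
    (hv : v ∈ orth S) (hu0 : u ≠ 0) (hv0 : v ≠ 0) : ∃ A ∈ TS S, A.1 *ᵥ u = v := by
  obtain ⟨z, hz, h1, h2⟩ := exists_nonperp_two hS hu hv hu0 hv0
  obtain ⟨A, hA, hAu⟩ := step_nonperp hu hz h1
  obtain ⟨C, hC, hCz⟩ := step_nonperp hz hv h2
  exact ⟨C * A, mul_mem hC hA, by rw [mulVec_mul, hAu, hCz]⟩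

theorem fix_left_step {S : Set (V m F)} {u v v' : V m F} (hv : v ∈ orth S) (hv' : v' ∈ orth S)
    (h : B u v = 1) (h' : B u v' = 1) (hne : B v v' ≠ 0) :
    ∃ A ∈ TS S, A.1 *ᵥ u = u ∧ A.1 *ᵥ v = v' := by
  refine ⟨T (v' - v) (B v v')⁻¹, T_mem_TS ((orth S).sub_mem hv' hv) _, T_fix (by rw [map_sub, h', h, sub_self]), ?_⟩
  rw [T_apply, map_sub, B_self, sub_zero, inv_mul_cancel₀ hne, one_smul, add_sub_cancel]

theorem fix_left {S : Set (V m F)} {u v v' : V m F} (hu : u ∈ orth S) (hv : v ∈ orth S) (hv' : v' ∈ orth S)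
    (h : B u v = 1) (h' : B u v' = 1) : ∃ A ∈ TS S, A.1 *ᵥ u = u ∧ A.1 *ᵥ v = v' := by
  by_cases hne : B v v' = 0
  · obtain ⟨A, hA, hAu, hAv⟩ := fix_left_step hv ((orth S).add_mem hu hv) h (by rw [map_add, B_self, zero_add, h])
      (by rw [map_add, B_self, add_zero, B_swap, h]; exact neg_ne_zero.2 one_ne_zero)
    obtain ⟨C, hC, hCu, hCv⟩ := fix_left_step ((orth S).add_mem hu hv) hv' (by rw [map_add, B_self, zero_add, h]) h'
      (by rw [map_add, LinearMap.add_apply, h', hne, add_zero]; exact one_ne_zero)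
    exact ⟨C * A, mul_mem hC hA, by rw [mulVec_mul, hAu, hCu], by rw [mulVec_mul, hAv, hCv]⟩
  · exact fix_left_step hv hv' h h' hne

theorem trans_pair {S : Set (V m F)} (hS : NondegOrth S) {u v u' v' : V m F} (hu : u ∈ orth S) (hv : v ∈ orth S)
    (hu' : u' ∈ orth S) (hv' : v' ∈ orth S) (h : B u v = 1) (h' : B u' v' = 1) :
    ∃ A ∈ TS S, A.1 *ᵥ u = u' ∧ A.1 *ᵥ v = v' := by
  have hu0 : u ≠ 0 := by rintro rfl; simp at h
  have hu0' : u' ≠ 0 := by rintro rfl; simp at h'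
  obtain ⟨A, hA, hAu⟩ := trans_vec hS hu hu' hu0 hu0'
  have hAv : A.1 *ᵥ v ∈ orth S := fun s hs => by
    conv_lhs => rw [← TS_le_fixer S hA s hs]
    rw [B_map]; exact hv s hs
  obtain ⟨C, hC, hCu, hCv⟩ := fix_left hu' hAv hv' (by rw [← hAu, B_map, h]) h'
  exact ⟨C * A, mul_mem hC hA, by rw [mulVec_mul, hAu, hCu], by rw [mulVec_mul, hCv]⟩

theorem nondeg_empty : NondegOrth (∅ : Set (V m F)) := fun x _ hx => by
  obtain ⟨z, hz⟩ := exists_B_eq_one hx
  exact ⟨z, fun s hs => absurd hs (Set.notMem_empty s), by rw [hz]; exact one_ne_zero⟩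

/-- the standard basis vectors of index below `j` -/
def std (j : ℕ) : Set (V m F) :=
  {x | ∃ i : Fin m, (i : ℕ) < j ∧ (x = Pi.single (Sum.inl i) 1 ∨ x = Pi.single (Sum.inr i) 1)}

theorem mem_orth_std {j : ℕ} {x : V m F} :
    x ∈ orth (std j) ↔ ∀ i : Fin m, (i : ℕ) < j → x (Sum.inl i) = 0 ∧ x (Sum.inr i) = 0 := by
  constructor
  · intro h i hi
    have h1 := h _ ⟨i, hi, Or.inl rfl⟩
    have h2 := h _ ⟨i, hi, Or.inr rfl⟩
    rw [B_single_left_inl, neg_eq_zero] at h1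
    rw [B_single_left_inr] at h2
    exact ⟨h2, h1⟩
  · rintro h s ⟨i, hi, rfl | rfl⟩
    · rw [B_single_left_inl, (h i hi).2, neg_zero]
    · rw [B_single_left_inr, (h i hi).1]

theorem single_mem_orth_std {j : ℕ} {i : Fin m} (hi : j ≤ (i : ℕ)) (a : F) :
    (Pi.single (Sum.inl i) a : V m F) ∈ orth (std j) ∧ (Pi.single (Sum.inr i) a : V m F) ∈ orth (std j) := by
  constructor <;> rw [mem_orth_std] <;> intro k hk <;> simp [Pi.single_apply] <;>
    (intro h; subst h; omega)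

theorem nondeg_std (j : ℕ) : NondegOrth (std j : Set (V m F)) := by
  intro x hx hx0
  obtain ⟨k, hk⟩ := Function.ne_iff.1 hx0
  rcases k with k | k
  · have hj : j ≤ (k : ℕ) := Nat.not_lt.1 fun h => hk ((mem_orth_std.1 hx k h).1)
    exact ⟨_, (single_mem_orth_std hj 1).2, by rw [B_single_inr]; exact neg_ne_zero.2 hk⟩
  · have hj : j ≤ (k : ℕ) := Nat.not_lt.1 fun h => hk ((mem_orth_std.1 hx k h).2)
    exact ⟨_, (single_mem_orth_std hj 1).1, by rw [B_single_inl]; exact hk⟩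

theorem B_std_pair (i : Fin m) : B (Pi.single (Sum.inr i) 1) (Pi.single (Sum.inl i) 1 : V m F) = 1 := by
  rw [B_single_inl]; simp

theorem fixer_top_eq_bot : fixer (std m : Set (V m F)) = ⊥ := by
  rw [Subgroup.eq_bot_iff_forall]
  intro A hA
  refine Subtype.ext (Matrix.ext fun a b => ?_)
  have h : A.1 *ᵥ (Pi.single b 1 : V m F) = Pi.single b 1 := by
    rcases b with b | b
    · exact hA _ ⟨b, b.isLt, Or.inl rfl⟩
    · exact hA _ ⟨b, b.isLt, Or.inr rfl⟩
  have := congrFun h a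
  simpa [Matrix.one_apply, Pi.single_apply] using this

theorem std_succ {j : ℕ} (hj : j < m) :
    (std (j + 1) : Set (V m F)) = std j ∪ {Pi.single (Sum.inr ⟨j, hj⟩) 1, Pi.single (Sum.inl ⟨j, hj⟩) 1} := by
  ext x
  constructor
  · rintro ⟨i, hi, hx⟩
    rcases Nat.lt_succ_iff_lt_or_eq.1 hi with h | h
    · exact Or.inl ⟨i, h, hx⟩
    · obtain rfl : i = ⟨j, hj⟩ := Fin.ext h
      rcases hx with rfl | rfl
      · exact Or.inr (Or.inr rfl)
      · exact Or.inr (Or.inl rfl)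
  · rintro (⟨i, hi, hx⟩ | rfl | rfl)
    · exact ⟨i, by omega, hx⟩
    · exact ⟨⟨j, hj⟩, by simp, Or.inr rfl⟩
    · exact ⟨⟨j, hj⟩, by simp, Or.inl rfl⟩

theorem mem_orth_of_fixer {S : Set (V m F)} {A : Sp m F} (hA : A ∈ fixer S) {x : V m F} (hx : x ∈ orth S) :
    A.1 *ᵥ x ∈ orth S := fun s hs => by
  conv_lhs => rw [← hA s hs]
  rw [B_map]; exact hx s hs

theorem fixer_std_eq_TS (j : ℕ) (hj : j ≤ m) : fixer (std j : Set (V m F)) = TS (std j) := by
  refine le_antisymm ?_ (TS_le_fixer _)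
  induction h : m - j generalizing j with
  | zero =>
    obtain rfl : j = m := by omega
    rw [fixer_top_eq_bot]; exact bot_le
  | succ k ih =>
    have hjm : j < m := by omega
    intro A hA
    obtain ⟨he, hf⟩ := single_mem_orth_std (F := F) (i := (⟨j, hjm⟩ : Fin m)) le_rfl 1
    obtain ⟨C, hC, hC1, hC2⟩ := trans_pair (nondeg_std j) (mem_orth_of_fixer hA hf) (mem_orth_of_fixer hA he)
      hf he (by rw [B_map, B_std_pair]) (B_std_pair _)
    have hCA : C * A ∈ fixer (std (j + 1)) := by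
      rw [std_succ hjm]
      rintro s (hs | rfl | rfl)
      · rw [mulVec_mul, hA s hs, TS_le_fixer _ hC s hs]
      · rw [mulVec_mul, hC1]
      · rw [mulVec_mul, hC2]
    have h2 := TS_mono (S := std j) (S' := std (j + 1)) (fun x hx => by obtain ⟨i, hi, hx⟩ := hx; exact ⟨i, by omega, hx⟩)
      (ih (j + 1) (by omega) (by omega) hCA)
    simpa using mul_mem (inv_mem hC) h2

theorem std_zero : (std 0 : Set (V m F)) = ∅ := by
  ext x; simp [std]

theorem TS_empty_eq_top : TS (∅ : Set (V m F)) = ⊤ := by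
  rw [← std_zero, ← fixer_std_eq_TS 0 (Nat.zero_le _), std_zero, eq_top_iff]
  intro A _ s hs
  exact absurd hs (Set.notMem_empty s)

theorem closure_T_eq_top : Subgroup.closure {A : Sp m F | ∃ w c, A = T w c} = ⊤ := by
  rw [eq_top_iff, ← TS_empty_eq_top, TS]
  exact Subgroup.closure_mono (by rintro _ ⟨w, -, c, rfl⟩; exact ⟨w, c, rfl⟩)

theorem exists_map_vec {u v : V m F} (hu : u ≠ 0) (hv : v ≠ 0) : ∃ A : Sp m F, A.1 *ᵥ u = v :=
  let ⟨A, _, h⟩ := trans_vec nondeg_empty (fun s hs => absurd hs (Set.notMem_empty s))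
    (fun s hs => absurd hs (Set.notMem_empty s)) hu hv
  ⟨A, h⟩

theorem exists_map_pair {u v u' v' : V m F} (h : B u v = 1) (h' : B u' v' = 1) :
    ∃ A : Sp m F, A.1 *ᵥ u = u' ∧ A.1 *ᵥ v = v' :=
  let ⟨A, _, hA⟩ := trans_pair nondeg_empty (fun s hs => absurd hs (Set.notMem_empty s))
    (fun s hs => absurd hs (Set.notMem_empty s)) (fun s hs => absurd hs (Set.notMem_empty s))
    (fun s hs => absurd hs (Set.notMem_empty s)) h h'
  ⟨A, hA⟩

end CfsgLib.Symplectic.Basic
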