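import Mathlib
import Cfsg.Agent.Lib.Symplectic.Basic
import Cfsg.Agent.Lib.Forms.Witt
import Cfsg.Agent.Lib.Forms.WittAlt
import Cfsg.Agent.Lib.Geometry.InvolutionFrame
import Cfsg.Agent.Lib.Orth.Models

/-!
Conjugacy of involutions in symplectic groups in characteristic two.
-/

set_option autoImplicit false
open scoped Matrix

namespace CfsgLib.Symplectic.InvolutionClasses

open CfsgLib.Symplectic.Basic CfsgLib.Geometry.InvolutionFrame CfsgLib.Orth.Models

variable {F : Type*} [Field F] [Finite F] [CharP F 2] {m : ℕ}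

/-- `a - 1`. -/
noncomputable def N (a : Sp m F) : V m F →ₗ[F] V m F := (a.1 - 1).mulVecLin

omit [Finite F] [CharP F 2] in
theorem N_apply (a : Sp m F) (x : V m F) : N a x = a.1 *ᵥ x - x := by
  rw [N, Matrix.mulVecLin_apply, Matrix.sub_mulVec, Matrix.one_mulVec]

omit [Finite F] in
theorem polar_plus_eq (u v : V m F) : QuadraticMap.polar (⇑(plusQ F m)) u v = B u v := by
  rw [B_expand]
  simp only [QuadraticMap.polar, plusQ_apply, Cfsg.quadFormPlus, Pi.add_apply, ← Finset.sum_sub_distrib]
  refine Finset.sum_congr rfl fun i _ => ?_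
  rw [CharTwo.sub_eq_add, CharTwo.sub_eq_add, CharTwo.sub_eq_add]
  linear_combination CharTwo.add_self_eq_zero (u (Sum.inl i) * u (Sum.inr i)) + CharTwo.add_self_eq_zero (v (Sum.inl i) * v (Sum.inr i))

/-- Every involution preserves some quadratic form polarising to the symplectic form. -/
theorem exists_inv (a : Sp m F) (ha : a * a = 1) :
    ∃ Q : QuadraticForm F (V m F), (∀ u v, QuadraticMap.polar (⇑Q) u v = B u v) ∧ Inv Q (N a) := by
  have htt : ∀ v, a.1 *ᵥ (a.1 *ᵥ v) = v := fun v => by rw [← mulVec_mul, ha]; exact Matrix.one_mulVec v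
  have h2 : ∀ v : V m F, v + v = 0 := fun v => vec_add_self (F := F) v
  have hsq : ∀ x, N a (N a x) = 0 := fun x => by
    rw [N_apply, N_apply, Matrix.mulVec_sub, htt]
    linear_combination (norm := module) h2 x - h2 (a.1 *ᵥ x)
  have hsym : ∀ x y, B (N a x) y = B x (N a y) := fun x y => by
    have := B_map a (a.1 *ᵥ x) y
    rw [htt] at this
    simp only [N_apply, map_sub, LinearMap.sub_apply]
    rw [this]
  let h : V m F → F := fun x => plusQ F m (N a x) + B x (N a x)
  have hadd : ∀ x y, h (x + y) = h x + h y := fun x y => by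
    have e : plusQ F m (N a x + N a y) = plusQ F m (N a x) + plusQ F m (N a y) + B (N a x) (N a y) := by
      rw [← polar_plus_eq]; simp only [QuadraticMap.polar]; ring
    simp only [h, map_add, e, LinearMap.add_apply]
    have e1 : B (N a x) (N a y) = 0 := by rw [hsym, hsq, map_zero]
    have e2 : B y (N a x) = B x (N a y) := by rw [← hsym x y, B_swap, CharTwo.neg_eq]
    rw [e1, e2]
    linear_combination CharTwo.add_self_eq_zero (B x (N a y))
  have hsmul : ∀ (c : F) x, h (c • x) = c ^ 2 * h x := fun c x => by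
    simp only [h, map_smul, QuadraticMap.map_smul, LinearMap.smul_apply, smul_eq_mul]; ring
  haveI : Fact (Nat.Prime 2) := ⟨Nat.prime_two⟩
  set s := (frobeniusEquiv F 2).symm with hs
  let φ : V m F →ₗ[F] F :=
    { toFun := fun x => s (h x)
      map_add' := fun x y => by rw [hadd, map_add]
      map_smul' := fun c x => by
        rw [hsmul, map_mul, RingHom.id_apply, smul_eq_mul]
        congr 1
        rw [hs, RingEquiv.symm_apply_eq, frobeniusEquiv_def] }
  obtain ⟨l, hl⟩ : φ ∈ LinearMap.range (N a).dualMap := by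
    rw [LinearMap.range_dualMap_eq_dualAnnihilator_ker, Submodule.mem_dualAnnihilator]
    intro x hx
    show s (h x) = 0
    simp only [h, LinearMap.mem_ker.1 hx, QuadraticMap.map_zero, map_zero, add_zero]
  have hlx : ∀ x, l (N a x) * l (N a x) = h x := fun x => by
    rw [show l (N a x) = s (h x) from LinearMap.congr_fun hl x]
    have := (frobeniusEquiv F 2).apply_symm_apply (h x)
    rw [frobeniusEquiv_def, sq] at this
    exact this
  have hp : ∀ u v, QuadraticMap.polar (⇑(plusQ F m + QuadraticMap.linMulLin l l)) u v = B u v := fun u v => by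
    rw [← polar_plus_eq]
    simp only [QuadraticMap.polar, QuadraticMap.add_apply, QuadraticMap.linMulLin_apply, map_add]
    linear_combination CharTwo.add_self_eq_zero (l u * l v)
  refine ⟨plusQ F m + QuadraticMap.linMulLin l l, hp, ⟨hsq, fun x y => ?_, fun x => ?_⟩⟩
  · rw [hp, hp, hsym]
  · rw [hp, QuadraticMap.add_apply, QuadraticMap.linMulLin_apply, hlx]
    simp only [h]
    linear_combination CharTwo.add_self_eq_zero (plusQ F m (N a x))

theorem rank_eq (a : Sp m F) : (a.1 - 1).rank = Module.finrank F (LinearMap.range (N a)) := rfl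

/-- Involutions with the same rank and type are conjugate. -/
theorem isConj_of {a b : Sp m F} (ha : a * a = 1) (hb : b * b = 1) (hr : (a.1 - 1).rank = (b.1 - 1).rank)
    (ht : (∀ x, B x (N a x) = 0) ↔ ∀ x, B x (N b x) = 0) : IsConj a b := by
  classical
  obtain ⟨Qa, hQa, hIa⟩ := exists_inv a ha
  obtain ⟨Qb, hQb, hIb⟩ := exists_inv b hb
  have hnd : ∀ (Q : QuadraticForm F (V m F)), (∀ u v, QuadraticMap.polar (⇑Q) u v = B u v) →
      ∀ u : V m F, (∀ x, QuadraticMap.polar (⇑Q) u x = 0) → u = 0 := fun Q hQ u hu =>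
    eq_zero_of_B_left fun x => by rw [← hQ]; exact hu x
  have core : ∀ {κ : Type} [Fintype κ] (σ : κ → κ) (c : F) (w w' : κ → V m F), Frame Qa (N a) σ c w →
      Frame Qb (N b) σ c w' → (a.1 - 1).rank = Fintype.card κ → IsConj a b := by
    intro κ _ σ c w w' hw hw' hc
    have hli : ∀ {r : Sp m F} {Q : QuadraticForm F (V m F)} {u : κ → V m F}, Frame Q (N r) σ c u →
        (r.1 - 1).rank = Fintype.card κ → LinearIndependent F u := by
      intro r Q u hu hr'
      refine linearIndependent_iff_card_le_finrank_span.2 ?_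
      rw [← hr', rank_eq]
      refine Submodule.finrank_mono ?_
      rintro _ ⟨x, rfl⟩
      rw [hu.form]
      exact Submodule.sum_mem _ fun i _ => Submodule.smul_mem _ _ (Submodule.subset_span ⟨_, rfl⟩)
    let e := Module.Basis.span (hli hw hc)
    let e' := Module.Basis.span (hli hw' (hr ▸ hc))
    let φ := e.equiv e' (Equiv.refl κ)
    have he : ∀ i, ((e i : Submodule.span F (Set.range w)) : V m F) = w i := fun i => by simp [e, Module.Basis.span_apply]
    have hφ : ∀ i, (φ (e i) : V m F) = w' i := fun i => by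
      rw [Module.Basis.equiv_apply, Equiv.refl_apply]; simp [e', Module.Basis.span_apply]
    have hzero : ∀ {r : Sp m F} {Q : QuadraticForm F (V m F)} {u : κ → V m F}, Inv Q (N r) →
        (∀ u v, QuadraticMap.polar (⇑Q) u v = B u v) → Frame Q (N r) σ c u →
        ∀ x ∈ Submodule.span F (Set.range u), ∀ y ∈ Submodule.span F (Set.range u), B x y = 0 := by
      intro r Q u hI hQ hu x hx y hy
      have hle : Submodule.span F (Set.range u) ≤ LinearMap.range (N r) := Submodule.span_le.2 (by
        rintro _ ⟨i, rfl⟩; exact hu.mem i)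
      rw [← hQ]; exact hI.range_perp (hle hx) (hle hy)
    obtain ⟨g, hg, hgx⟩ := CfsgLib.Forms.Witt.extend (fun u v => B u v)
      (fun X₀ x y hx hy hk => CfsgLib.Forms.WittAlt.step B
        ⟨fun u hu => eq_zero_of_B_left hu, fun u hu => eq_zero_of_B_left fun v => by rw [B_swap, hu v, neg_zero]⟩
        (fun v => B_self v) X₀ x y hx hy hk) _ _ φ
      (fun x y => by
        show B _ _ = B _ _
        rw [hzero hIa hQa hw _ x.2 _ y.2, hzero hIb hQb hw' _ (φ x).2 _ (φ y).2])
    let h : Sp m F := ⟨LinearMap.toMatrix' g.toLinearMap, (mem_iff _).2 fun u v => by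
      rw [LinearMap.toMatrix'_mulVec, LinearMap.toMatrix'_mulVec]; exact hg u v⟩
    refine isConj_iff.2 ⟨h, ?_⟩
    rw [mul_inv_eq_iff_eq_mul]
    refine ext_mulVec fun x => ?_
    have hh : ∀ y, h.1 *ᵥ y = g y := fun y => by
      show LinearMap.toMatrix' g.toLinearMap *ᵥ y = g y
      rw [LinearMap.toMatrix'_mulVec]; rfl
    have hgi : ∀ i, g (w i) = w' i := fun i => by
      have := hgx (e i)
      rwa [hφ, he] at this
    rw [mulVec_mul, mulVec_mul, hh, hh]
    rw [show a.1 *ᵥ x = N a x + x by rw [N_apply]; abel, show b.1 *ᵥ g x = N b (g x) + g x by rw [N_apply]; abel,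
      map_add, hw.form, hw'.form, map_sum]
    congr 1
    refine Finset.sum_congr rfl fun i _ => ?_
    rw [map_smul, hgi, ← hgi i, hQa, hQb]
    exact congrArg (fun z : F => z • w' (σ i)) (hg (w i) x).symm
  by_cases h : ∀ x, B x (N a x) = 0
  · obtain ⟨k, hk, w, hw⟩ := hIa.frame_two _ (fun x => by rw [hQa]; exact h x) (hnd Qa hQa) rfl
    obtain ⟨k', hk', w', hw'⟩ := hIb.frame_two _ (fun x => by rw [hQb]; exact ht.1 h x) (hnd Qb hQb) rfl
    rw [rank_eq, rank_eq] at hr
    obtain rfl : k' = k := by omega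
    exact core _ _ w w' hw hw' (by rw [rank_eq, Fintype.card_sum, Fintype.card_fin]; omega)
  · have hna : ∃ x, QuadraticMap.polar (⇑Qa) x (N a x) ≠ 0 := by simp only [hQa]; exact not_forall.1 h
    have hnb : ∃ x, QuadraticMap.polar (⇑Qb) x (N b x) ≠ 0 := by simp only [hQb]; exact not_forall.1 (mt ht.2 h)
    obtain ⟨w, hw⟩ := hIa.frame_one _ (hnd Qa hQa) rfl (Or.inr hna)
    obtain ⟨w', hw'⟩ := hIb.frame_one ((a.1 - 1).rank) (hnd Qb hQb) hr.symm (Or.inr hnb)
    exact core _ _ w w' hw hw' (Fintype.card_fin _).symm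

theorem even_of_alt {a : Sp m F} (ha : a * a = 1) (h : ∀ x, B x (N a x) = 0) : Even (a.1 - 1).rank := by
  obtain ⟨Q, hQ, hI⟩ := exists_inv a ha
  obtain ⟨k, hk, -⟩ := hI.frame_two _ (fun x => by rw [hQ]; exact h x)
    (fun u hu => eq_zero_of_B_left fun x => by rw [← hQ]; exact hu x) rfl
  exact ⟨k, by rw [rank_eq]; omega⟩

end CfsgLib.Symplectic.InvolutionClasses
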