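import Mathlib
import Cfsg.Agent.Lib.Symplectic.Basic
import Cfsg.Agent.Lib.Forms.AltRank

/-!
# The isotropic set of an involution of a symplectic group in characteristic two
-/

set_option autoImplicit false
open scoped Matrix

namespace CfsgLib.Symplectic.InvolutionForm

open CfsgLib.Symplectic.Basic Module

variable {F : Type*} [Field F] [Fintype F] [CharP F 2] {m : ℕ}

theorem main (t : Sp m F) (ht : t * t = 1) :
    (Nat.card {v : V m F // Cfsg.sympForm m F v (t.1 *ᵥ v) = 0} = Fintype.card F ^ (2 * m) ∨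
      Nat.card {v : V m F // Cfsg.sympForm m F v (t.1 *ᵥ v) = 0} * Fintype.card F = Fintype.card F ^ (2 * m)) ∧
    ((∀ v : V m F, Cfsg.sympForm m F v (t.1 *ᵥ v) = 0) → Even (t.1 - 1).rank) := by
  classical
  simp only [← B_eq]
  have htt : ∀ v, t.1 *ᵥ (t.1 *ᵥ v) = v := fun v => by
    rw [← mulVec_mul, ht]; exact Matrix.one_mulVec v
  constructor
  · haveI : Fact (Nat.Prime 2) := ⟨Nat.prime_two⟩
    set s := (frobeniusEquiv F 2).symm with hs
    have hadd : ∀ v w : V m F, B (v + w) (t.1 *ᵥ (v + w)) = B v (t.1 *ᵥ v) + B w (t.1 *ᵥ w) := fun v w => by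
      have h : B w (t.1 *ᵥ v) = B v (t.1 *ᵥ w) := by
        rw [← B_map t w (t.1 *ᵥ v), htt, B_swap, CharTwo.neg_eq]
      rw [Matrix.mulVec_add]
      simp only [map_add, LinearMap.add_apply]
      rw [h]
      linear_combination CharTwo.add_self_eq_zero (B v (t.1 *ᵥ w))
    have hsmul : ∀ (c : F) (v : V m F), B (c • v) (t.1 *ᵥ (c • v)) = c ^ 2 * B v (t.1 *ᵥ v) := fun c v => by
      rw [Matrix.mulVec_smul]
      simp only [map_smul, LinearMap.smul_apply, smul_eq_mul]
      ring
    let φ : V m F →ₗ[F] F :=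
      { toFun := fun v => s (B v (t.1 *ᵥ v))
        map_add' := fun v w => by rw [hadd, map_add]
        map_smul' := fun c v => by
          rw [hsmul, map_mul, RingHom.id_apply, smul_eq_mul]
          congr 1
          rw [hs, RingEquiv.symm_apply_eq, frobeniusEquiv_def] }
    have hset : ∀ v : V m F, B v (t.1 *ᵥ v) = 0 ↔ v ∈ LinearMap.ker φ := fun v => by
      rw [LinearMap.mem_ker]
      exact (map_eq_zero_iff s s.injective).symm
    have hc : Nat.card {v : V m F // B v (t.1 *ᵥ v) = 0} = Nat.card (LinearMap.ker φ) :=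
      Nat.card_congr (Equiv.subtypeEquivRight hset)
    rw [hc, Module.natCard_eq_pow_finrank (K := F), Nat.card_eq_fintype_card, ← pow_succ]
    have h := LinearMap.finrank_range_add_finrank_ker φ
    rw [finrank_fintype_fun_eq_card, Fintype.card_sum, Fintype.card_fin] at h
    have hle : finrank F (LinearMap.range φ) ≤ 1 := (Submodule.finrank_le _).trans_eq (finrank_self F)
    rcases Nat.le_one_iff_eq_zero_or_eq_one.mp hle with h0 | h1
    · left; congr 1; omega
    · right; congr 1; omega
  · intro hall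
    let N : Matrix (Fin m ⊕ Fin m) (Fin m ⊕ Fin m) F := t.1 - 1
    let C : V m F →ₗ[F] V m F →ₗ[F] F := LinearMap.comp (B (F := F) (m := m)) (Matrix.mulVecLin N)
    have hC : ∀ x y, C x y = B (N *ᵥ x) y := fun x y => rfl
    have halt : ∀ x, C x x = 0 := fun x => by
      rw [hC, Matrix.sub_mulVec, Matrix.one_mulVec, map_sub, LinearMap.sub_apply, B_self, B_swap, hall, neg_zero, sub_zero]
    have hker : LinearMap.ker C = LinearMap.ker (Matrix.mulVecLin N) := by
      refine LinearMap.ker_comp_of_ker_eq_bot _ ?_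
      rw [LinearMap.ker_eq_bot']
      exact fun u hu => eq_zero_of_B_left fun v => by rw [hu]; rfl
    have h1 := LinearMap.finrank_range_add_finrank_ker C
    have h2 := LinearMap.finrank_range_add_finrank_ker (Matrix.mulVecLin N)
    rw [hker] at h1
    show Even (finrank F (LinearMap.range (Matrix.mulVecLin N)))
    exact CfsgLib.AltRank.even_rank _ C halt (Nat.add_right_cancel (h1.trans h2.symm))

end CfsgLib.Symplectic.InvolutionForm
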